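import Cfsg.Agent.S0742
import Mathlib.GroupTheory.Sylow

/-!
# Groups whose Sylow `p`-centralisers are `p`-groups, with the order of `PSL(2, q)`
-/

set_option autoImplicit false
set_option linter.unusedSectionVars false

namespace Cfsg.Agent.PslDeg

open Subgroup MulAction

variable {G : Type*} [Group G] [Finite G] {p : ℕ} [Fact p.Prime]

/-- The hypotheses: order, abelian Sylow, and centralisers of `p`-elements are `p`-groups. -/
structure Hyp (G : Type*) [Group G] (p q t : ℕ) : Prop where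
  four_le : 4 ≤ t
  even : Even t
  q_eq : q = 2 * t + 1
  card : Nat.card G = q * (t * (2 * t + 2))
  card_sylow : ∀ P : Sylow p G, Nat.card (P : Subgroup G) = q
  comm : ∀ P : Sylow p G, ∀ x ∈ (P : Subgroup G), ∀ y ∈ (P : Subgroup G), x * y = y * x
  cent : ∀ y : G, y ≠ 1 → ∀ P : Sylow p G, y ∈ (P : Subgroup G) →
    IsPGroup p (Subgroup.centralizer ({y} : Set G))

namespace Hyp

variable {q t : ℕ} (h : Hyp G p q t)

include h

theorem cent_eq {y : G} (hy : y ≠ 1) (P : Sylow p G) (hyP : y ∈ (P : Subgroup G)) :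
    Subgroup.centralizer ({y} : Set G) = (P : Subgroup G) :=
  P.3 (h.cent y hy P hyP) fun x hx => Subgroup.mem_centralizer_singleton_iff.2 (h.comm P x hx y hyP)

theorem ti {y : G} (hy : y ≠ 1) {P Q : Sylow p G} (hyP : y ∈ (P : Subgroup G))
    (hyQ : y ∈ (Q : Subgroup G)) : P = Q :=
  Sylow.ext ((h.cent_eq hy P hyP).symm.trans (h.cent_eq hy Q hyQ))

theorem free {u : G} {P R : Sylow p G} (hu : u ∈ (P : Subgroup G)) (hR : R ≠ P) (hf : u • R = R) :
    u = 1 := by
  by_contra h1
  have h2 : u ∈ (P : Subgroup G) ⊓ Subgroup.normalizer ((R : Subgroup G) : Set G) :=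
    ⟨hu, Sylow.smul_eq_iff_mem_normalizer.1 hf⟩
  have h3 : u ∈ (P : Subgroup G) ⊓ (R : Subgroup G) := (le_of_eq (P.2.inf_normalizer_sylow R)) h2
  exact hR (h.ti h1 h3.1 h3.2).symm

theorem fix_self {u : G} {P : Sylow p G} (hu : u ∈ (P : Subgroup G)) : u • P = P :=
  Sylow.smul_eq_iff_mem_normalizer.2 (Subgroup.le_normalizer hu)

theorem orbit_inj {P Q : Sylow p G} (hQ : Q ≠ P) :
    Function.Injective fun u : (P : Subgroup G) => (u : G) • Q := fun u v e =>
  Subtype.ext (inv_mul_eq_one.1 (h.free (mul_mem (inv_mem u.2) v.2) hQ (by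
    rw [mul_smul]
    exact (congrArg ((u : G)⁻¹ • ·) (show (v : G) • Q = (u : G) • Q from e.symm)).trans
      (inv_smul_smul (u : G) Q))))

theorem card_points (P : Sylow p G) : ∃ k, Nat.card (Sylow p G) = q * k + 1 := by
  classical
  let X := {R : Sylow p G // R ≠ P}
  let _ : MulAction (P : Subgroup G) X :=
    { smul := fun u R => ⟨(u : G) • R.1, fun e => R.2
        (MulAction.injective (u : G) (e.trans (h.fix_self u.2).symm))⟩
      one_smul := fun R => Subtype.ext (one_smul G R.1)
      mul_smul := fun u v R => Subtype.ext (mul_smul (u : G) (v : G) R.1) }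
  have hfree : ∀ R : X, MulAction.stabilizer (P : Subgroup G) R = ⊥ := fun R => by
    rw [eq_bot_iff]
    intro u hu
    exact Subtype.ext (h.free u.2 R.2 (congrArg Subtype.val (MulAction.mem_stabilizer_iff.1 hu)))
  have e := Nat.card_congr (MulAction.selfEquivOrbitsQuotientProd hfree)
  rw [Nat.card_prod, h.card_sylow P] at e
  refine ⟨Nat.card (Quotient (MulAction.orbitRel (P : Subgroup G) X)), ?_⟩
  rw [mul_comm q, ← e]
  let _ := Fintype.ofFinite (Sylow p G)
  have : Nat.card X = Nat.card (Sylow p G) - 1 := by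
    rw [Nat.card_eq_fintype_card, Fintype.card_subtype_compl, Fintype.card_subtype_eq,
      Nat.card_eq_fintype_card]
  have := Nat.card_pos (α := Sylow p G)
  omega

theorem card_normalizer_le (P : Sylow p G) :
    ((P : Subgroup G).subgroupOf (Subgroup.normalizer ((P : Subgroup G) : Set G))).index ≤ q - 1 := by
  classical
  have hn : (1 : ℕ) < Nat.card (P : Subgroup G) := by
    rw [h.card_sylow P, h.q_eq]; have := h.four_le; omega
  obtain ⟨⟨y, hy⟩, hy1⟩ :=
    (Finite.one_lt_card_iff_nontrivial.1 hn).exists_pair_ne.elim fun a ⟨b, hab⟩ =>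
      if ha : a = 1 then (⟨b, fun e => hab (ha.trans e.symm)⟩ : ∃ x : (P : Subgroup G), x ≠ 1)
      else ⟨a, ha⟩
  have hy' : y ≠ 1 := fun e => hy1 (Subtype.ext e)
  set N := Subgroup.normalizer ((P : Subgroup G) : Set G) with hN
  set K := (P : Subgroup G).subgroupOf N with hK
  let f : N ⧸ K → {x : (P : Subgroup G) // x ≠ 1} := fun c =>
    ⟨⟨(c.out : G) * y * (c.out : G)⁻¹, (Subgroup.mem_normalizer_iff.1 c.out.2 y).1 hy⟩,
      fun e => hy' (by simpa using congrArg Subtype.val e)⟩
  have hf : Function.Injective f := by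
    intro a b e
    have e' : (a.out : G) * y * (a.out : G)⁻¹ = (b.out : G) * y * (b.out : G)⁻¹ :=
      congrArg (fun x : {x : (P : Subgroup G) // x ≠ 1} => ((x.1 : G))) e
    rw [← QuotientGroup.out_eq' a, ← QuotientGroup.out_eq' b, QuotientGroup.eq]
    show ((a.out⁻¹ * b.out : N) : G) ∈ (P : Subgroup G)
    rw [← h.cent_eq hy' P hy, Subgroup.mem_centralizer_singleton_iff]
    have e2 := congrArg (fun z => (a.out : G)⁻¹ * z * (b.out : G)) e'
    simp only [Subgroup.coe_mul, Subgroup.coe_inv]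
    group at e2 ⊢
    exact e2.symm
  have := Nat.card_le_card_of_injective f hf
  let _ := Fintype.ofFinite (P : Subgroup G)
  rw [Nat.card_eq_fintype_card (α := {x : (P : Subgroup G) // x ≠ 1}), Fintype.card_subtype_compl,
    Fintype.card_subtype_eq, ← Nat.card_eq_fintype_card, h.card_sylow P] at this
  exact this

theorem counts (P : Sylow p G) : Nat.card (Sylow p G) = q + 1 ∧
    Nat.card (MulAction.stabilizer G P) = q * t := by
  obtain ⟨k, hk⟩ := h.card_points P
  have hle := h.card_normalizer_le P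
  set N := Subgroup.normalizer ((P : Subgroup G) : Set G) with hN
  set e := ((P : Subgroup G).subgroupOf N).index with he
  have h1 : q * e = Nat.card N := by
    rw [← h.card_sylow P, he,
      ← Nat.card_congr (Subgroup.subgroupOfEquivOfLe (Subgroup.le_normalizer (H := (P : Subgroup G)))).toEquiv,
      Subgroup.card_mul_index]
  have h2 : Nat.card (Sylow p G) = N.index := Sylow.card_eq_index_normalizer P
  have h3 := N.card_mul_index
  rw [h.card, ← h1, ← h2, hk, mul_assoc] at h3
  have h4 : e * (q * k + 1) = t * (2 * t + 2) :=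
    Nat.eq_of_mul_eq_mul_left (by rw [h.q_eq]; omega) h3
  have h5 : q ∣ 2 * e + 1 := by
    have : (q : ℤ) ∣ (2 * e + 1 : ℤ) :=
      ⟨(q : ℤ) - 2 * e * k, by
        have h4' : (e : ℤ) * ((q : ℤ) * k + 1) = t * (2 * t + 2) := by exact_mod_cast h4
        have hq : (q : ℤ) = 2 * t + 1 := by exact_mod_cast h.q_eq
        rw [hq] at h4' ⊢
        linear_combination 2 * h4'⟩
    exact_mod_cast this
  obtain ⟨c, hc⟩ := h5
  have hc1 : c = 1 := by
    rcases c with _ | _ | c
    · omega
    · rfl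
    · exfalso
      have := Nat.mul_le_mul_left q (show 2 ≤ c + 1 + 1 by omega)
      have := h.q_eq
      omega
  rw [hc1, mul_one, h.q_eq] at hc
  have het : e = t := by omega
  have hst : MulAction.stabilizer G P = N := Sylow.stabilizer_eq_normalizer P
  refine ⟨?_, by rw [hst, ← h1, het]⟩
  rw [het] at h4
  have := Nat.eq_of_mul_eq_mul_left (show 0 < t by have := h.four_le; omega) h4
  rw [hk, this, h.q_eq]

theorem transitive_others {P Q R : Sylow p G} (hQ : Q ≠ P) (hR : R ≠ P) :
    ∃ u ∈ (P : Subgroup G), u • Q = R := by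
  classical
  let _ := Fintype.ofFinite (Sylow p G)
  let f : ↥(P : Subgroup G) → {T : Sylow p G // T ≠ P} := fun u => ⟨(u : G) • Q, fun e => hQ
    (MulAction.injective (u : G) (e.trans (h.fix_self u.2).symm))⟩
  have hf : Function.Injective f := fun u v e => h.orbit_inj hQ (congrArg Subtype.val e)
  have hc : Nat.card {T : Sylow p G // T ≠ P} = Nat.card (Sylow p G) - 1 := by
    rw [Nat.card_eq_fintype_card, Fintype.card_subtype_compl, Fintype.card_subtype_eq,
      Nat.card_eq_fintype_card]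
  have hb : Function.Bijective f := (Nat.bijective_iff_injective_and_card _).2 ⟨hf, by
    rw [hc, (h.counts P).1, h.card_sylow P]; omega⟩
  obtain ⟨u, hu⟩ := hb.2 ⟨R, hR⟩
  exact ⟨u, u.2, congrArg Subtype.val hu⟩

theorem exists_to_pair {A B C D : Sylow p G} (hAB : A ≠ B) (hCD : C ≠ D) :
    ∃ g : G, g • A = C ∧ g • B = D := by
  obtain ⟨g, hg⟩ := MulAction.exists_smul_eq G A C
  have hB : g • B ≠ C := fun e => hAB (MulAction.injective g (hg.trans e.symm))
  obtain ⟨u, hu, hu'⟩ := h.transitive_others hB hCD.symm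
  exact ⟨u * g, by rw [mul_smul, hg, h.fix_self hu], by rw [mul_smul, hu']⟩

theorem three {g : G} {A B C : Sylow p G} (hAB : A ≠ B) (hBC : B ≠ C) (hAC : A ≠ C)
    (hA : g • A = A) (hB : g • B = B) (hC : g • C = C) : g = 1 := by
  obtain ⟨u, hu, huC⟩ := h.transitive_others hAB.symm hAC.symm
  have hu1 : u ≠ 1 := by rintro rfl; exact hBC (by rw [← huC, one_smul])
  have hconj : g * u * g⁻¹ ∈ (A : Subgroup G) :=
    (Subgroup.mem_normalizer_iff.1 (Sylow.smul_eq_iff_mem_normalizer.1 hA) u).1 hu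
  have h1 : (g * u * g⁻¹) • B = u • B := by
    rw [mul_smul, mul_smul, inv_smul_eq_iff.2 hB.symm, huC, hC]
  have h2 : g * u * g⁻¹ = u :=
    congrArg Subtype.val (h.orbit_inj hAB.symm (a₁ := ⟨_, hconj⟩) (a₂ := ⟨u, hu⟩) h1)
  have hg : g ∈ (A : Subgroup G) := by
    rw [← h.cent_eq hu1 A hu, Subgroup.mem_centralizer_singleton_iff]
    exact mul_inv_eq_iff_eq_mul.1 h2
  exact h.free hg hAB.symm hB

theorem card_two_point {P Q : Sylow p G} (hPQ : P ≠ Q) :
    Nat.card ↥(MulAction.stabilizer G P ⊓ MulAction.stabilizer G Q) = t := by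
  classical
  set H := MulAction.stabilizer G P ⊓ MulAction.stabilizer G Q with hH
  let f : ↥(P : Subgroup G) × ↥H → MulAction.stabilizer G P := fun x =>
    ⟨(x.1 : G) * (x.2 : G), mul_mem (MulAction.mem_stabilizer_iff.2 (h.fix_self x.1.2)) x.2.2.1⟩
  have hinj : Function.Injective f := by
    rintro ⟨u, a⟩ ⟨v, b⟩ e
    have e1 : (u : G) * (a : G) = (v : G) * (b : G) := congrArg Subtype.val e
    have h2 : (u : G) • Q = (v : G) • Q := by
      have := congrArg (· • Q) e1
      simp only [mul_smul] at this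
      rwa [MulAction.mem_stabilizer_iff.1 a.2.2, MulAction.mem_stabilizer_iff.1 b.2.2] at this
    have h3 := h.orbit_inj hPQ.symm h2
    subst h3
    exact Prod.ext rfl (Subtype.ext (mul_left_cancel e1))
  have hsurj : Function.Surjective f := by
    intro g
    have hg := MulAction.mem_stabilizer_iff.1 g.2
    have hne : (g : G) • Q ≠ P := fun e => hPQ
      (MulAction.injective (g : G) (hg.trans e.symm))
    obtain ⟨u, hu, hu'⟩ := h.transitive_others hPQ.symm hne
    refine ⟨(⟨u, hu⟩, ⟨u⁻¹ * g, Subgroup.mem_inf.2 ⟨?_, ?_⟩⟩), Subtype.ext (by simp [f])⟩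
    · exact mul_mem (inv_mem (MulAction.mem_stabilizer_iff.2 (h.fix_self hu))) g.2
    · rw [MulAction.mem_stabilizer_iff, mul_smul, ← hu', inv_smul_smul]
  have := Nat.card_congr (Equiv.ofBijective f ⟨hinj, hsurj⟩)
  rw [Nat.card_prod, h.card_sylow P, (h.counts P).2] at this
  exact Nat.eq_of_mul_eq_mul_left (by rw [h.q_eq]; omega) this

theorem no_regular (N : Subgroup G) [N.Normal] [MulAction.IsPretransitive N (Sylow p G)] :
    ∃ P : Sylow p G, MulAction.stabilizer N P ≠ ⊥ := by
  by_contra hall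
  push Not at hall
  obtain ⟨P⟩ := (inferInstance : Nonempty (Sylow p G))
  have hb : Function.Bijective fun n : N => n • P := by
    refine ⟨fun a b e => ?_, MulAction.surjective_smul N P⟩
    have : b⁻¹ * a ∈ MulAction.stabilizer N P := by
      rw [MulAction.mem_stabilizer_iff, mul_smul]
      exact (congrArg (b⁻¹ • ·) e).trans (inv_smul_smul b P)
    rw [hall P, Subgroup.mem_bot, inv_mul_eq_one] at this
    exact this.symm
  have hc : Nat.card N = q + 1 := (Nat.card_congr (Equiv.ofBijective _ hb)).trans (h.counts P).1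
  have h4 := h.four_le
  obtain ⟨s, hs⟩ := h.even
  obtain ⟨r, hr, hrd⟩ := Nat.exists_prime_and_dvd (show t + 1 ≠ 1 by omega)
  have hr2 : r ≠ 2 := by rintro rfl; omega
  have : Fact r.Prime := ⟨hr⟩
  have : Fact (Nat.Prime 2) := ⟨Nat.prime_two⟩
  obtain ⟨a, ha⟩ := exists_prime_orderOf_dvd_card' (G := N) 2 (by rw [hc, h.q_eq]; omega)
  obtain ⟨b, hb'⟩ := exists_prime_orderOf_dvd_card' (G := N) r (by
    rw [hc, h.q_eq, show 2 * t + 1 + 1 = 2 * (t + 1) by ring]; exact dvd_mul_of_dvd_right hrd 2)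
  have hne : ∀ x : N, x ≠ 1 → (x : G) • P ≠ P := fun x hx e => hx (hb.1 (by
    show x • P = (1 : N) • P
    rw [one_smul]; exact e))
  have ha1 : a ≠ 1 := fun e => by rw [e, orderOf_one] at ha; omega
  have hb1 : b ≠ 1 := fun e => by rw [e, orderOf_one] at hb'; exact hr.one_lt.ne hb'
  obtain ⟨u, hu, hu'⟩ := h.transitive_others (hne a ha1) (hne b hb1)
  let c : N := ⟨u * (a : G) * u⁻¹, ‹N.Normal›.conj_mem _ a.2 u⟩
  have hcb : c = b := hb.1 (by
    show (u * (a : G) * u⁻¹) • P = (b : G) • P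
    rw [mul_smul, inv_smul_eq_iff.2 (h.fix_self hu).symm, mul_smul, hu'])
  have : orderOf (b : G) = orderOf (a : G) := by
    rw [← hcb]; exact (MulAut.conj u).orderOf_eq (a : G)
  rw [Subgroup.orderOf_coe, Subgroup.orderOf_coe, ha, hb'] at this
  exact hr2 this

theorem equiv_psl : ∃ (K : Type) (_ : Field K) (_ : Fintype K), Fintype.card K = q ∧
    Nonempty (G ≃* Matrix.ProjectiveSpecialLinearGroup (Fin 2) K) := by
  classical
  let _ := Fintype.ofFinite (Sylow p G)
  obtain ⟨P⟩ := (inferInstance : Nonempty (Sylow p G))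
  have hcard := (h.counts P).1
  have h4 := h.four_le
  have hq := h.q_eq
  have hnt : Nontrivial (Sylow p G) := Finite.one_lt_card_iff_nontrivial.1 (by omega)
  obtain ⟨Q, hQ⟩ := exists_ne P
  have hfaith : FaithfulSMul G (Sylow p G) := ⟨fun {g k} hgk => by
    have hx : ∀ R : Sylow p G, (k⁻¹ * g) • R = R := fun R => by
      rw [mul_smul, hgk, inv_smul_smul]
    obtain ⟨R, hR⟩ : ∃ R : Sylow p G, R ∉ ({P, Q} : Finset (Sylow p G)) := by
      by_contra hno
      push Not at hno
      have := Finset.card_le_card (fun R (_ : R ∈ Finset.univ) => hno R)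
      have : ({P, Q} : Finset (Sylow p G)).card ≤ 2 := Finset.card_le_two
      rw [Finset.card_univ, ← Nat.card_eq_fintype_card, hcard] at *
      omega
    simp only [Finset.mem_insert, Finset.mem_singleton, not_or] at hR
    exact (inv_mul_eq_one.1 (h.three hQ.symm (Ne.symm hR.2) (Ne.symm hR.1) (hx P) (hx Q) (hx R))).symm⟩
  have hZ : Cfsg.IsZassenhausGroup G (Sylow p G) := by
    refine ⟨hfaith, MulAction.is_two_pretransitive_iff.2 fun hab hcd => h.exists_to_pair hab hcd,
      fun g a b c hab hbc hac => h.three hab hbc hac, ?_, fun N hN _ => ?_⟩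
    · have hH : 1 < Nat.card ↥(MulAction.stabilizer G P ⊓ MulAction.stabilizer G Q) := by
        rw [h.card_two_point hQ.symm]; omega
      obtain ⟨g, hg⟩ := @exists_ne _ (Finite.one_lt_card_iff_nontrivial.1 hH) 1
      exact ⟨g, fun e => hg (Subtype.ext e), P, Q, hQ.symm, g.2.1, g.2.2⟩
    · exact h.no_regular N
  obtain ⟨r, f, K, iK, iF, -, -, hK, hΩ, he⟩ := Cfsg.Agent.S0742.result hZ hQ.symm
    (by rw [h.card_two_point hQ.symm]; exact h.even)
    (by rw [h.card_two_point hQ.symm, ← Nat.card_eq_fintype_card, hcard]; omega)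
  rw [← Nat.card_eq_fintype_card, hcard] at hΩ
  exact ⟨K, iK, iF, by omega, he⟩

end Hyp

end Cfsg.Agent.PslDeg
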