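import Cfsg.Agent.PslDeg.Count
import Cfsg.Agent.PslDeg.Struct
import Cfsg.Agent.Char.DefectZero
import Cfsg.Agent.Linear.OrderSixty
import Cfsg.Agent.TwoAut.SubEightBasic

/-!
# No element of mixed order in a group with the degree multiset of `PSL(2, q)`
-/

set_option autoImplicit false
set_option linter.unusedSectionVars false

namespace Cfsg.Agent.PslDeg

open Cfsg Subgroup

variable {G : Type*} [Group G] [Finite G]

theorem not_mixed {p r q t : ℕ} [Fact p.Prime] (hr : r.Prime) (hrp : r ≠ p)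
    (hq : q = 2 * t + 1) (ht : 4 ≤ t) (hte : Even t) (hpk : ∃ k, 1 ≤ k ∧ q = p ^ k)
    (hcard : Nat.card G = q * (t * (2 * t + 2))) (h1 : cnt G 1 = 1)
    (hdeg : ∀ d : ℕ, cnt G d ≠ 0 → d ∈ ({1, q, 2 * t + 2, 2 * t, t + 1} : Finset ℕ))
    (x : G) (hpx : p ∣ orderOf x) (hrx : r ∣ orderOf x) : False := by
  classical
  let _ := Fintype.ofFinite G
  have hp : p.Prime := Fact.out
  obtain ⟨k, hk, hqk⟩ := hpk
  obtain ⟨s, hs⟩ := hte
  have hpq : p ∣ q := hqk ▸ dvd_pow_self p (by omega)
  have hpm : ¬ p ∣ t * (2 * t + 2) := by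
    intro hd
    rw [show t * (2 * t + 2) = 2 * (t * (t + 1)) by ring] at hd
    rcases hp.dvd_mul.1 hd with h2 | h2
    · rw [(Nat.prime_dvd_prime_iff_eq hp Nat.prime_two).1 h2] at hpq
      omega
    rcases hp.dvd_mul.1 h2 with h3 | h3
    · have h4 := Nat.dvd_sub hpq (dvd_mul_of_dvd_right h3 2)
      rw [show q - 2 * t = 1 by omega] at h4
      exact hp.not_dvd_one h4
    · have h4 := Nat.dvd_sub (dvd_mul_of_dvd_right h3 2) hpq
      rw [show 2 * (t + 1) - q = 1 by omega] at h4
      exact hp.not_dvd_one h4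
  have hrq : ¬ r ∣ q := fun hd =>
    hrp ((Nat.prime_dvd_prime_iff_eq hr hp).1 (hr.dvd_of_dvd_pow (hqk ▸ hd)))
  have hrG : r ∣ 2 * (t * (t + 1)) := by
    have h := hrx.trans (orderOf_dvd_natCard x)
    rw [hcard, show t * (2 * t + 2) = 2 * (t * (t + 1)) by ring] at h
    exact (hr.dvd_mul.1 h).resolve_left hrq
  have hx1 : x ≠ 1 := fun e => by
    rw [e, orderOf_one] at hpx
    exact hp.not_dvd_one hpx
  choose f _ hf using fun χ : IrrCharacter G => exists_deg χ
  have hmem : ∀ χ, f χ ∈ ({1, q, 2 * t + 2, 2 * t, t + 1} : Finset ℕ) := fun χ =>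
    hdeg _ (cnt_ne_zero (hf χ))
  have htriv : f (Char.trivialIrr G) = 1 := by
    have := hf (Char.trivialIrr G)
    exact_mod_cast (this.symm.trans (show (Char.trivialIrr G : G → ℂ) 1 = ((1 : ℕ) : ℂ) by
      rw [Nat.cast_one]; rfl))
  have huniq : ∀ χ, f χ = 1 → χ = Char.trivialIrr G := by
    intro χ hχ
    have hsub : Subsingleton {χ : IrrCharacter G // (χ : G → ℂ) 1 = ((1 : ℕ) : ℂ)} :=
      (Nat.card_eq_one_iff_unique.1 h1).1
    exact congrArg Subtype.val (hsub.elim ⟨χ, by rw [hf χ, hχ]⟩ ⟨Char.trivialIrr G, by rw [hf _, htriv]⟩)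
  obtain ⟨m, hm1, hm⟩ : ∃ m : ℕ, 1 < m ∧ ∀ χ, χ ≠ Char.trivialIrr G → (χ : G → ℂ) x = 0 ∨ m ∣ f χ := by
    have hst : ∀ χ, f χ = q → (χ : G → ℂ) x = 0 := fun χ hχ =>
      Char.irr_defect_zero_vanish χ.2 hp ((hf χ).trans (by rw [hχ])) hcard hpm x hpx
    have hrt : r ∣ t ∨ (r ∣ t + 1 ∧ ¬ r ∣ t ∧ r ≠ 2) := by
      by_cases h : r ∣ t
      · exact Or.inl h
      have h2 : r ≠ 2 := by rintro rfl; omega
      refine Or.inr ⟨?_, h, h2⟩
      rcases hr.dvd_mul.1 hrG with h' | h'
      · exact absurd ((Nat.prime_dvd_prime_iff_eq hr Nat.prime_two).1 h') h2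
      · exact (hr.dvd_mul.1 h').resolve_left h
    rcases hrt with hrt | ⟨hrt, hnt, hr2⟩
    · have hn : ¬ r ∣ q * (t + 1) := fun hd => by
        rcases hr.dvd_mul.1 hd with h' | h'
        · exact hrq h'
        · have := Nat.dvd_sub h' hrt
          rw [show t + 1 - t = 1 by omega] at this
          exact hr.not_dvd_one this
      refine ⟨t + 1, by omega, fun χ hχ => ?_⟩
      have := hmem χ
      simp only [Finset.mem_insert, Finset.mem_singleton] at this
      rcases this with h | h | h | h | h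
      · exact absurd (huniq χ h) hχ
      · exact Or.inl (hst χ h)
      · exact Or.inr ⟨2, by omega⟩
      · exact Or.inl (Char.irr_defect_zero_vanish χ.2 hr ((hf χ).trans (by rw [h]))
          (m := q * (t + 1)) (by rw [hcard]; ring) hn x hrx)
      · exact Or.inr (h ▸ dvd_rfl)
    · have hn : ¬ r ∣ q * t := fun hd => (hr.dvd_mul.1 hd).elim hrq hnt
      have hn2 : ¬ r ∣ q * (2 * t) := fun hd => by
        rcases hr.dvd_mul.1 hd with h' | h'
        · exact hrq h'
        rcases hr.dvd_mul.1 h' with h'' | h''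
        · exact hr2 ((Nat.prime_dvd_prime_iff_eq hr Nat.prime_two).1 h'')
        · exact hnt h''
      refine ⟨2 * t, by omega, fun χ hχ => ?_⟩
      have := hmem χ
      simp only [Finset.mem_insert, Finset.mem_singleton] at this
      rcases this with h | h | h | h | h
      · exact absurd (huniq χ h) hχ
      · exact Or.inl (hst χ h)
      · exact Or.inl (Char.irr_defect_zero_vanish χ.2 hr ((hf χ).trans (by rw [h]))
          (m := q * t) (by rw [hcard]; ring) hn x hrx)
      · exact Or.inr (h ▸ dvd_rfl)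
      · exact Or.inl (Char.irr_defect_zero_vanish χ.2 hr ((hf χ).trans (by rw [h]))
          (m := q * (2 * t)) (by rw [hcard]; ring) hn2 x hrx)
  let A : ℂ := ∑ χ ∈ Finset.univ.erase (Char.trivialIrr G), ((f χ / m : ℕ) : ℂ) * (χ : G → ℂ) x
  have hA : IsIntegral ℤ A := IsIntegral.sum _ fun χ _ =>
    (Char.isIntegral_of_nat _).mul (Char.isCharacter_isIntegral (Char.isCharacter_of_irr χ.2) x)
  have hsum := Char.sum_irr_degree_mul (G := G) x
  rw [if_neg hx1, ← Finset.add_sum_erase _ _ (Finset.mem_univ (Char.trivialIrr G)),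
    Finset.sum_congr rfl (g := fun χ : IrrCharacter G =>
      (m : ℂ) * (((f χ / m : ℕ) : ℂ) * (χ : G → ℂ) x)) (fun χ hχ => by
      rcases hm χ (Finset.ne_of_mem_erase hχ) with h0 | hd
      · rw [h0]; ring
      · rw [hf χ, ← mul_assoc, ← Nat.cast_mul, Nat.mul_div_cancel' hd]),
    ← Finset.mul_sum] at hsum
  rw [show (Char.trivialIrr G : G → ℂ) 1 * (Char.trivialIrr G : G → ℂ) x = 1 from one_mul _] at hsum
  have hm0 : (m : ℂ) ≠ 0 := Nat.cast_ne_zero.2 (by omega)
  have hdiv : ((1 : ℕ) : ℂ) / (m : ℂ) = -A := by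
    rw [Nat.cast_one, div_eq_iff hm0]
    show (1 : ℂ) = -A * m
    linear_combination hsum
  have := Char.dvd_of_isIntegral_div (by omega) (hdiv ▸ hA.neg)
  have := Nat.le_of_dvd one_pos this
  omega

theorem perfect_of_cnt (h1 : cnt G 1 = 1) : commutator G = ⊤ := by
  rw [← Subgroup.index_eq_one, ← Char.card_linear_irr]
  unfold cnt at h1
  simpa using h1

theorem order_sixty (h : Nat.card G = 60) (hperf : commutator G = ⊤) :
    Nonempty (G ≃* alternatingGroup (Fin 5)) := by
  classical
  have hnt : Nontrivial G := Finite.one_lt_card_iff_nontrivial.1 (by omega)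
  have : IsSimpleGroup G := by
    refine ⟨fun N hN => ?_⟩
    by_cases htop : N = ⊤
    · exact Or.inr htop
    left
    have hperf' : commutator (G ⧸ N) = ⊤ := by
      rw [commutator_def, ← Subgroup.map_top_of_surjective (QuotientGroup.mk' N)
        (QuotientGroup.mk'_surjective N), ← Subgroup.map_commutator, ← commutator_def, hperf]
    have hnsol : ¬ Group.IsSolvable (G ⧸ N) := fun hs => by
      have hsub : (⊤ : Subgroup (G ⧸ N)) = ⊥ := by
        obtain ⟨n, hn⟩ := hs.solvable
        have : ∀ n, derivedSeries (G ⧸ N) n = ⊤ := fun n => by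
          induction n with
          | zero => rfl
          | succ n ih => rw [derivedSeries_succ, ih, ← commutator_def, hperf']
        rw [this] at hn
        exact hn
      refine htop (Subgroup.index_eq_one.1 ?_)
      rw [Subgroup.index, ← Subgroup.card_top, hsub, Subgroup.card_bot]
    have hd : N.index ∣ 60 := h ▸ N.index_dvd_card
    have hdiv : N.index ∣ 20160 := hd.trans (by norm_num)
    have hle := Nat.le_of_dvd (by norm_num) hd
    have h60 : N.index = 60 := by
      rcases TwoAut.SubEight.dvd_of_nonsolvable (G := G ⧸ N) hdiv hnsol with h' | h' | h'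
      · exact Nat.dvd_antisymm hd h'
      · have := Nat.le_of_dvd (Nat.pos_of_ne_zero Subgroup.index_ne_zero_of_finite) h'
        change 84 ≤ N.index at this
        omega
      · have := Nat.le_of_dvd (Nat.pos_of_ne_zero Subgroup.index_ne_zero_of_finite) h'
        change 140 ≤ N.index at this
        omega
    refine Subgroup.eq_bot_of_card_eq _ ?_
    have := N.card_mul_index
    rw [h60, h] at this
    omega
  exact Linear.simple_order_sixty_iso h

end Cfsg.Agent.PslDeg
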