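import Cfsg.Agent.SL2Val.Identify
import Cfsg.Agent.Linear.SmallIso

/-!
# The degree multiset of `PSL(2, q)`, `q ≡ 1 (mod 4)`, from the order alone
-/

set_option autoImplicit false
set_option linter.unusedSectionVars false

namespace Cfsg.Agent.PslDeg

open Cfsg
open scoped MatrixGroups

/-- The number of irreducible characters of degree `d`. -/
noncomputable def cnt (H : Type*) [Group H] (d : ℕ) : ℕ :=
  Nat.card {χ : IrrCharacter H // (χ : H → ℂ) 1 = (d : ℂ)}

theorem exists_deg {H : Type*} [Group H] [Finite H] (χ : IrrCharacter H) :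
    ∃ d : ℕ, 0 < d ∧ (χ : H → ℂ) 1 = (d : ℂ) := Char.irr_one_pos χ.2

theorem cnt_ne_zero {H : Type*} [Group H] [Finite H] {χ : IrrCharacter H} {d : ℕ}
    (h : (χ : H → ℂ) 1 = (d : ℂ)) : cnt H d ≠ 0 := by
  classical
  letI := Fintype.ofFinite H
  have : Nonempty {χ : IrrCharacter H // (χ : H → ℂ) 1 = (d : ℂ)} := ⟨⟨χ, h⟩⟩
  exact Nat.card_ne_zero.2 ⟨this, inferInstance⟩

theorem card_eq_sum {H : Type*} [Group H] [Finite H] (S : Finset ℕ)
    (hS : ∀ (χ : IrrCharacter H) (d : ℕ), (χ : H → ℂ) 1 = (d : ℂ) → d ∈ S) :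
    Nat.card H = ∑ d ∈ S, cnt H d * d ^ 2 := by
  classical
  letI := Fintype.ofFinite H
  choose f _ hf using fun χ : IrrCharacter H => exists_deg χ
  have h1 : (Nat.card H : ℂ) = ((∑ χ : IrrCharacter H, f χ ^ 2 : ℕ) : ℂ) := by
    rw [← Char.sum_irr_degree_sq]; push_cast; simp only [hf]
  have h2 : Nat.card H = ∑ χ : IrrCharacter H, f χ ^ 2 := by exact_mod_cast h1
  rw [h2, ← Finset.sum_fiberwise_of_maps_to (t := S) (g := f) (fun χ _ => hS χ _ (hf χ))]
  refine Finset.sum_congr rfl fun d _ => ?_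
  rw [Finset.sum_congr rfl (g := fun _ => d ^ 2) (fun χ hχ => by rw [(Finset.mem_filter.1 hχ).2]),
    Finset.sum_const, smul_eq_mul]
  congr 1
  unfold cnt
  rw [Nat.card_eq_fintype_card, Fintype.card_subtype]
  refine congrArg Finset.card (Finset.filter_congr fun χ _ => ?_)
  rw [hf χ, Nat.cast_inj]

/-- The half degree `(q - 1) / 2` does not occur. -/
theorem arith {t A B C E Q : ℕ} (ht : 4 ≤ t) (hte : Even t) (hA : A + 1 ≤ t) (hB : B ≤ t)
    (hC : C ≤ 2) (hE : E ≤ 2) (hQ : Q ≤ 1)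
    (hsum : 1 + Q * (2 * t + 1) ^ 2 + A * (2 * t + 2) ^ 2 + B * (2 * t) ^ 2 + C * (t + 1) ^ 2
      + E * t ^ 2 = (2 * t + 1) * (2 * t * (t + 1))) : E = 0 := by
  obtain ⟨s, rfl⟩ := hte
  have h : (((2 * (s + s) + 1 : ℕ) : ℤ)) = 2 * (s + s) + 1 := by push_cast; ring
  zify at hsum ht hA hB hC hE hQ
  set t : ℤ := (s : ℤ) + s with ht'
  have key : (t + 1) ^ 2 * (4 * A + C - (2 * t - 2)) + t ^ 2 * (4 * B + E - 2 * t)
      = (1 - Q) * (2 * t + 1) ^ 2 := by linear_combination hsum
  rcases (show Q = 0 ∨ Q = 1 by omega) with rfl | rfl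
  · exfalso
    set u : ℤ := 4 * A + C - (2 * t - 2) with hu
    have h1 : t ^ 2 ∣ (2 * t + 1) * (u - (2 * t + 1)) :=
      ⟨-(4 * B + E - 2 * t) - u, by push_cast at key; linear_combination key⟩
    have hco : IsCoprime (t ^ 2) (2 * t + 1) :=
      (show IsCoprime t (2 * t + 1) from ⟨-2, 1, by ring⟩).pow_left
    have h2 := hco.dvd_of_dvd_mul_left h1
    have h3 : u - (2 * t + 1) < 0 := by omega
    have h4 : t ^ 2 ≤ -(u - (2 * t + 1)) := Int.le_of_dvd (by omega) (dvd_neg.2 h2)
    nlinarith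
  · set u : ℤ := 4 * A + C - (2 * t - 2) with hu
    have h1 : t ^ 2 ∣ (t + 1) ^ 2 * u :=
      ⟨-(4 * B + E - 2 * t), by push_cast at key; linear_combination key⟩
    have hco : IsCoprime (t ^ 2) ((t + 1) ^ 2) :=
      (show IsCoprime t (t + 1) from ⟨-1, 1, by ring⟩).pow
    have h2 := hco.dvd_of_dvd_mul_left h1
    have h3 : u = 0 := Int.eq_zero_of_abs_lt_dvd h2 (by
      rw [abs_lt]; constructor <;> nlinarith)
    have h4 : t ^ 2 * (4 * B + E - 2 * t) = 0 := by
      rw [h3] at key; push_cast at key; linear_combination key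
    rcases mul_eq_zero.1 h4 with h5 | h5
    · nlinarith
    · omega

variable {F : Type*} [Field F] [Fintype F]

local notation "q" => Fintype.card F
local notation "L" => Matrix.ProjectiveSpecialLinearGroup (Fin 2) F

theorem cnt_psl_le (d : ℕ) (S : Finset (IrrCharacter SL(2, F)))
    (hS : ∀ χ : IrrCharacter SL(2, F), charDegree (χ : SL(2, F) → ℂ) = d → χ ∈ S) :
    cnt L d ≤ S.card := by
  rw [← Nat.card_eq_finsetCard]
  let f : {χ : IrrCharacter L // (χ : L → ℂ) 1 = (d : ℂ)} → S := fun χ =>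
    ⟨(Char.irrEquivQuotient _ χ.1).1, hS _ (Char.charDegree_of_eq (by
      rw [Char.irrEquivQuotient_apply]; exact χ.2))⟩
  refine Nat.card_le_card_of_injective f fun a b hab => Subtype.ext ?_
  exact (Char.irrEquivQuotient _).injective (Subtype.ext (congrArg (fun x : S => (x : IrrCharacter SL(2, F))) hab))

theorem psl_perfect_count (h5 : 5 ≤ q) : cnt L 1 = 1 := by
  classical
  refine le_antisymm ((cnt_psl_le 1 {SL2Char.chiOne F} fun χ hχ => ?_).trans
    (Finset.card_singleton _).le) (Nat.one_le_iff_ne_zero.2 ?_)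
  · rw [Finset.mem_singleton]
    rcases SL2Val.kinds χ with ⟨e, -⟩ | ⟨-, e⟩ | ⟨-, e⟩ | ⟨-, -, e⟩ | ⟨-, ⟨-, e⟩ | ⟨-, e⟩⟩
    all_goals first | exact e | omega
  · letI := Fintype.ofFinite L
    exact cnt_ne_zero (χ := Char.trivialIrr L) (by
      rw [Nat.cast_one]
      rfl)

theorem psl_degrees (ht : q % 8 = 1) :
    (∀ d : ℕ, cnt L d ≠ 0 → d ∈ ({1, q, q + 1, q - 1, (q + 1) / 2} : Finset ℕ)) := by
  classical
  have hq : 9 ≤ q := by
    have := Fintype.one_lt_card (α := F)
    omega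
  have hν : ∃ ν : F, ¬ IsSquare ν := FiniteField.exists_nonsquare fun h2 => by
    haveI : CharP F 2 := ringChar.eq_iff.1 h2
    obtain ⟨n, -, hn⟩ := FiniteField.card F 2
    obtain ⟨k, hk⟩ := Nat.exists_eq_succ_of_ne_zero n.ne_zero
    rw [hn, hk, pow_succ] at ht
    omega
  obtain ⟨ν, hν⟩ := hν
  obtain ⟨H, D, W, cH, cD, cW, kH, kD, kW, hall⟩ := SL2Char.odd_classification hν
  have cP := SL2Char.card_psSet_odd hν
  have k1 := SL2Char.charDegree_chiOne_odd (F := F) hν
  have kS := SL2Char.charDegree_chiSt_odd (F := F) hν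
  have kP : ∀ χ ∈ SL2Char.psSet F, charDegree (χ : SL(2, F) → ℂ) = q + 1 :=
    fun χ h => SL2Char.charDegree_psSet_odd hν h
  have hdeg : ∀ (χ : IrrCharacter L) (d : ℕ), (χ : L → ℂ) 1 = (d : ℂ) →
      d ∈ ({1, q, q + 1, q - 1, (q + 1) / 2, (q - 1) / 2} : Finset ℕ) := by
    intro χ d hd
    have hd' : charDegree ((Char.irrEquivQuotient _ χ).1 : SL(2, F) → ℂ) = d :=
      Char.charDegree_of_eq (by rw [Char.irrEquivQuotient_apply]; exact hd)
    simp only [Finset.mem_insert, Finset.mem_singleton]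
    rcases hall (Char.irrEquivQuotient _ χ).1 with e | e | e | e | e | e
    · rw [e, k1] at hd'; omega
    · rw [e, kS] at hd'; omega
    · rw [kP _ e] at hd'; omega
    · have := (kH _ e).2.2.2; omega
    · have := (kD _ e).2.2.2; omega
    · have := (kW _ e).2.2.2; omega
  have hA : cnt L (q + 1) ≤ (SL2Char.psSet F).card := cnt_psl_le _ _ fun χ hχ => by
    rcases hall χ with e | e | e | e | e | e
    · rw [e, k1] at hχ; omega
    · rw [e, kS] at hχ; omega
    · exact e
    · have := (kH _ e).2.2.2; omega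
    · have := (kD _ e).2.2.2; omega
    · have := (kW _ e).2.2.2; omega
  have hB : cnt L (q - 1) ≤ W.card := cnt_psl_le _ _ fun χ hχ => by
    rcases hall χ with e | e | e | e | e | e
    · rw [e, k1] at hχ; omega
    · rw [e, kS] at hχ; omega
    · rw [kP _ e] at hχ; omega
    · have := (kH _ e).2.2.2; omega
    · have := (kD _ e).2.2.2; omega
    · exact e
  have hC : cnt L ((q + 1) / 2) ≤ H.card := cnt_psl_le _ _ fun χ hχ => by
    rcases hall χ with e | e | e | e | e | e
    · rw [e, k1] at hχ; omega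
    · rw [e, kS] at hχ; omega
    · rw [kP _ e] at hχ; omega
    · exact e
    · have := (kD _ e).2.2.2; omega
    · have := (kW _ e).2.2.2; omega
  have hE : cnt L ((q - 1) / 2) ≤ D.card := cnt_psl_le _ _ fun χ hχ => by
    rcases hall χ with e | e | e | e | e | e
    · rw [e, k1] at hχ; omega
    · rw [e, kS] at hχ; omega
    · rw [kP _ e] at hχ; omega
    · have := (kH _ e).2.2.2; omega
    · exact e
    · have := (kW _ e).2.2.2; omega
  have hQ : cnt L q ≤ 1 := by
    refine (cnt_psl_le q {SL2Char.chiSt F} fun χ hχ => ?_).trans (Finset.card_singleton _).le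
    rw [Finset.mem_singleton]
    exact SL2Val.eq_chiSt_of_degree (by
      rw [(Char.irr_charDegree_spec χ.2).2, hχ])
  have hsum := card_eq_sum (H := L) _ hdeg
  have h1 := psl_perfect_count (F := F) (by omega)
  have hcard := Linear.card_PSL_two_of_odd (F := F) (Nat.odd_iff.2 (by omega))
  obtain ⟨t, ht'⟩ : ∃ t, q = 2 * t + 1 := ⟨q / 2, by omega⟩
  rw [Finset.sum_insert (by simp; omega), Finset.sum_insert (by simp; omega),
    Finset.sum_insert (by simp; omega), Finset.sum_insert (by simp; omega),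
    Finset.sum_insert (by simp; omega), Finset.sum_singleton, h1] at hsum
  have e1 : q - 1 = 2 * t := by omega
  have e2 : (q + 1) / 2 = t + 1 := by omega
  have e3 : (q - 1) / 2 = t := by omega
  rw [e1] at hB hsum
  rw [e2] at hC hsum
  rw [ht'] at hA hQ hsum
  rw [e3] at hE
  have e4 : 2 * t / 2 = t := by omega
  try rw [e4] at hsum
  rw [ht', show 2 * t + 1 - 1 = 2 * t by omega] at hcard
  have e5 : Nat.card L = (2 * t + 1) * (2 * t * (t + 1)) := by
    refine Nat.eq_of_mul_eq_mul_left (show 0 < 2 by omega) ?_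
    rw [hcard]; ring
  rw [e5] at hsum
  have hE0 : cnt L t = 0 := arith (t := t) (A := cnt L (2 * t + 1 + 1)) (B := cnt L (2 * t))
    (C := cnt L (t + 1)) (Q := cnt L (2 * t + 1)) (by omega) (Nat.even_iff.2 (by omega))
    (by omega) (by omega) (by omega) (by omega) hQ (by rw [hsum]; ring)
  intro d hd
  classical
  letI := Fintype.ofFinite L
  obtain ⟨⟨χ, hχ⟩⟩ := (Nat.card_ne_zero.1 hd).1
  have := hdeg χ d hχ
  simp only [Finset.mem_insert, Finset.mem_singleton] at this ⊢
  rcases this with h | h | h | h | h | h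
  · exact Or.inl h
  · exact Or.inr (Or.inl h)
  · exact Or.inr (Or.inr (Or.inl h))
  · exact Or.inr (Or.inr (Or.inr (Or.inl h)))
  · exact Or.inr (Or.inr (Or.inr (Or.inr h)))
  · rw [h, e3] at hd; exact absurd hE0 hd

end Cfsg.Agent.PslDeg
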